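import Cfsg.Agent.H285.Ccp.PureM
import Cfsg.Agent.OddHalf.Known
import Cfsg.Agent.H256.ZBasic
import Cfsg.Agent.H763.Ccp.Alt

/-!
# S4114 from the rows of the groups of Lie type and of the sporadic groups (helper285)

* `zStarT_of` : the `Z*`-theorem for isolated elements from S1938;
* `solvable_of` : S4114 from S0000, S1938 and the rows of the groups of Lie type, the Tits group and the sporadic groups.
-/

set_option autoImplicit false

namespace Cfsg.Agent.H285.Ccp

open Cfsg Cfsg.Agent.H520

universe u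

/-- S1938 gives the `Z*`-theorem for isolated `p`-elements. -/
theorem zStarT_of (h : ∀ (G : Type) [Group G] [Finite G] {p : ℕ} [Fact p.Prime] (S : Sylow p G) (x : G),
    x ∈ (S : Subgroup G) → (∀ g : G, g * x * g⁻¹ ∈ (S : Subgroup G) → g * x * g⁻¹ = x) → Cfsg.InZStar p x) : ZStarT := by
  intro p _ H _ _ x hx hiso
  obtain ⟨k, hk⟩ := hx
  have h1 : IsPGroup p (Subgroup.zpowers x) := IsPGroup.of_card (n := k) (by rw [Nat.card_zpowers, hk])
  obtain ⟨S, hS⟩ := h1.exists_le_sylow
  have hxS : x ∈ (S : Subgroup H) := hS (Subgroup.mem_zpowers x)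
  exact h H S x hxS fun g hg => H256.ZBasic.eq_of_mem hiso S.isPGroup' hxS hg

/-- The known simple groups. -/
theorem row_of_known (hlie : ∀ (p : ℕ) [Fact p.Prime] (K : Type) [Group K] [Finite K] [IsSimpleGroup K],
      IsLieTypeChar p K → Row K)
    (htits : ∀ (K : Type) [Group K] [Finite K], Lie.IsoTits K → Row K)
    (hspor : ∀ (K : Type) [Group K] [Finite K], IsSporadicGroup K → Row K)
    (K : Type) [Group K] [Finite K] [IsSimpleGroup K] (hna : ¬ ∀ a b : K, a * b = b * a) (hK : IsKnownSimple' K) :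
    Row K := by
  have hna' : ¬ IsMulCommutative K := fun h => hna fun a b => h.is_comm.comm a b
  rcases OddHalf.Known.classify' hna' hK with h | ⟨p, hp, h⟩ | h | h
  · exact H763.Ccp.row_alt h
  · have : Fact p.Prime := ⟨hp⟩
    exact hlie p K h
  · exact htits K h
  · exact hspor K h

/-- **S4114** from the rows. -/
theorem solvable_of
    (h0 : ∀ (K : Type) [Group K] [Finite K] [IsSimpleGroup K], IsKnownSimple' K)
    (h1938 : ∀ (G : Type) [Group G] [Finite G] {p : ℕ} [Fact p.Prime] (S : Sylow p G) (x : G),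
      x ∈ (S : Subgroup G) → (∀ g : G, g * x * g⁻¹ ∈ (S : Subgroup G) → g * x * g⁻¹ = x) → Cfsg.InZStar p x)
    (hlie : ∀ (p : ℕ) [Fact p.Prime] (K : Type) [Group K] [Finite K] [IsSimpleGroup K], IsLieTypeChar p K → Row K)
    (htits : ∀ (K : Type) [Group K] [Finite K], Lie.IsoTits K → Row K)
    (hspor : ∀ (K : Type) [Group K] [Finite K], IsSporadicGroup K → Row K)
    {G : Type u} [Group G] [Finite G] (α : MulAut G)
    (hccp : ∀ x : G, ∃ c g : G, α c = c ∧ x = c * (g⁻¹ * α g))
    (hgen : Subgroup.closure {y : G | ∃ g : G, y = g⁻¹ * α g} = ⊤) : Group.IsSolvable G :=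
  solvable_of_rows (zStarT_of h1938)
    (fun K _ _ _ hna => row_of_known hlie htits hspor K hna (h0 K)) α hccp hgen

end Cfsg.Agent.H285.Ccp
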