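import Cfsg.Agent.H459.RgdRad
import Cfsg.Agent.H520.CcpNE0

/-!
# Borel–Tits for automorphisms: `BTA r G` for every simple group of Lie type (helper285, for S4114)

* `not_isPGroup` : a group with a root group datum of rank at least one is not an `r`-group;
* `bta_of_hasFilt` : `HasFilt r G`, `G` nonabelian simple ⇒ `BTA r G`;
* `bta_of_lie` : `IsLieFilt r G` ⇒ `BTA r G` (all families except `Sz`, `²F₄`, `²G₂`).
-/

set_option autoImplicit false
set_option linter.unusedSectionVars false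

namespace Cfsg.Agent.H285.Ccp.Bta

open Cfsg Subgroup Cfsg.Agent.ChevalleyStructure.CoxeterGeom Cfsg.Agent.Tits.Roots Cfsg.Agent.Nodes.Reps
  Cfsg.Agent.Nodes.BNOf Cfsg.Agent.Nodes.RGDLib Cfsg.Agent.KFacts.RgdCharP Cfsg.Agent.KFacts.RgdFilt
  Cfsg.Agent.KFacts.RgdLieCharP Cfsg.Agent.FixBN Cfsg.Agent.H520
open Cfsg.Agent.H459.Iface (FixR)
open Cfsg.Agent.H459.Gallery (Iv cx cx_apply)

theorem not_isPGroup {K : Type*} [Group K] [Finite K] {r : ℕ} [Fact r.Prime] {l : ℕ} (hl : 0 < l)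
    {M : CoxeterMatrix (Fin l)} {A : Fin l → Fin l → ℤ} {h : IsCartan M A} {T : Subgroup K} {n : Fin l → K}
    {X : (Fin l → ℤ) → Subgroup K} [Finite M.Group] (R : RGD M.toCoxeterSystem h r T n X)
    (hgen : RGD.B M.toCoxeterSystem h T X ⊔ NN M.toCoxeterSystem R.nsys = ⊤)
    (hcore : (R.bnPair hgen).B.normalCore = ⊥) : ¬ IsPGroup r K := by
  intro hG
  have hsplit := SplitRGD.split_of_rgd Fact.out R hgen hcore
  obtain ⟨U', hU'⟩ := H459.RgdRad.exists_sylow hsplit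
  have hN : Subgroup.normalizer ((U' : Subgroup K) : Set K) = (R.bnPair hgen).B := by
    rw [hU']; exact hsplit.normalizer_eq
  have h1 : (⊤ : Subgroup K) = (U' : Subgroup K) := by
    have h2 : IsPGroup r (⊤ : Subgroup K) := hG.of_equiv Subgroup.topEquiv.symm
    exact U'.is_maximal' h2 le_top
  refine Cfsg.Agent.Schreier.BNSch.not_mem_B (R.bnPair hgen) (H459.RgdRad.mem_S R hgen (i := ⟨0, hl⟩)) ?_
  rw [← hN]
  refine Subgroup.le_normalizer ?_
  rw [← h1]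
  trivial

theorem fixR_of_not_el {K : Type*} [Group K] {r : ℕ} {x : MulAut K} (h : ¬ EL r x) : FixR r x := by
  unfold EL at h
  push Not at h
  obtain ⟨R, h1, h2, h3⟩ := h
  exact ⟨R, h3, h1, h2⟩

/-- **Borel–Tits for automorphisms.** -/
theorem bta_of_hasFilt {G : Type*} [Group G] [Finite G] [IsSimpleGroup G] {r : ℕ} [Fact r.Prime] (hG : HasFilt r G)
    (hc : ∃ a b : G, a * b ≠ b * a) : BTA r G := by
  obtain ⟨l, M, A, h, T, n, X, R, hW, hBT, -, -, -, hX, hl⟩ := hG.data hc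
  have hgen := rgd_gen_of_G1 R hX
  have hcore := Cfsg.Agent.Tits.OfBN.normalCore_eq_bot (R.bnPair hgen) ⟨n ⟨0, hl⟩, ⟨0, hl⟩, rfl⟩
  have hsplit := SplitRGD.split_of_rgd Fact.out R hgen hcore
  obtain ⟨U', hU'⟩ := H459.RgdRad.exists_sylow hsplit
  have hN : Subgroup.normalizer ((U' : Subgroup G) : Set G) = (R.bnPair hgen).B := by
    rw [hU']; exact hsplit.normalizer_eq
  have hns : ∀ V : Subgroup G, V ≠ ⊥ → V ≠ ⊤ → Subgroup.normalizer (V : Set G) ≠ ⊤ := by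
    intro V h1 h2 h3
    rcases (Subgroup.normalizer_eq_top_iff.1 h3).eq_bot_or_eq_top with h4 | h4
    · exact h1 h4
    · exact h2 h4
  intro α hα
  obtain ⟨M₀, g₀, h1, h2, h3⟩ := H459.RgdRad.exists_par R hgen hBT hns (not_isPGroup hl R hgen hcore)
    (fixR_of_not_el hα)
  refine ⟨M₀.map (MulAut.conj g₀).toMonoidHom, g₀ • U', ?_, ?_, ?_⟩
  · intro h4
    apply h2
    rw [eq_top_iff]
    intro x _
    have h5 : g₀ * x * g₀⁻¹ ∈ M₀.map (MulAut.conj g₀).toMonoidHom := by rw [h4]; exact Subgroup.mem_top _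
    obtain ⟨y, hy, h6⟩ := h5
    have h7 : y = x := (MulAut.conj g₀).injective h6
    rwa [← h7]
  · intro x hx
    refine ⟨g₀⁻¹ * x * g₀, h1 ?_, ?_⟩
    · rw [← hN, Subgroup.mem_normalizer_iff]
      intro u
      have h4 : ∀ v : G, v ∈ ((g₀ • U' : Sylow r G) : Subgroup G) ↔ g₀⁻¹ * v * g₀ ∈ (U' : Subgroup G) := by
        intro v
        rw [Sylow.coe_subgroup_smul, Subgroup.mem_pointwise_smul_iff_inv_smul_mem, ← map_inv]
        simp only [MulAut.smul_def, MulAut.conj_apply, inv_inv]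
      have h5 := (Subgroup.mem_normalizer_iff.1 hx) (g₀ * u * g₀⁻¹)
      rw [h4, h4] at h5
      have e1 : g₀⁻¹ * (g₀ * u * g₀⁻¹) * g₀ = u := by group
      have e2 : g₀⁻¹ * (x * (g₀ * u * g₀⁻¹) * x⁻¹) * g₀ = g₀⁻¹ * x * g₀ * u * (g₀⁻¹ * x * g₀)⁻¹ := by group
      rw [e1, e2] at h5
      exact h5
    · show g₀ * (g₀⁻¹ * x * g₀) * g₀⁻¹ = x
      group
  · rintro _ ⟨a, ha, rfl⟩
    refine ⟨cx α g₀ a, h3 a ha, ?_⟩
    show g₀ * cx α g₀ a * g₀⁻¹ = α (g₀ * a * g₀⁻¹)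
    rw [cx_apply]
    group

/-- **`BTA` for the simple groups of Lie type**, all families except `Sz(q)`, `²F₄(q)`, `²G₂(q)`. -/
theorem bta_of_lie {G : Type*} [Group G] [Finite G] [IsSimpleGroup G] {r : ℕ} [Fact r.Prime] (hG : IsLieFilt r G)
    (hc : ∃ a b : G, a * b ≠ b * a) : BTA r G :=
  bta_of_hasFilt (hasFilt_of_lie hG) hc

end Cfsg.Agent.H285.Ccp.Bta
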