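import Cfsg.Agent.H285.Ccp.PureG

/-!
# Pure four-groups of the minimal simple groups (helper285)
-/

set_option autoImplicit false

namespace Cfsg.Agent.H285.Ccp

open Matrix Polynomial

/-- sums of two squares in a finite field -/
theorem sum_sq {F : Type*} [Field F] [Fintype F] (c : F) : ∃ x y : F, x * x + y * y = c := by
  classical
  by_cases hF : ringChar F = 2
  · obtain ⟨x, hx⟩ := (FiniteField.isSquare_of_char_two hF c)
    exact ⟨x, 0, by rw [mul_zero, add_zero, hx]⟩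
  · have h1 : (X ^ 2 : F[X]).degree = 2 := degree_X_pow 2
    have h2 : (X ^ 2 - C c : F[X]).degree = 2 := degree_X_pow_sub_C (by norm_num) c
    obtain ⟨a, b, hab⟩ := FiniteField.exists_root_sum_quadratic h1 h2 (FiniteField.odd_card_of_char_ne_two hF)
    refine ⟨a, b, ?_⟩
    rw [eval_pow, eval_X, eval_sub, eval_pow, eval_X, eval_C] at hab
    linear_combination hab

theorem two_ne {F : Type*} [Field F] [Fintype F] (h : Odd (Fintype.card F)) : (2 : F) ≠ 0 := by
  intro h2
  have h3 : ringChar F = 2 := by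
    have h4 : ringChar F ∣ 2 := ringChar.dvd (by exact_mod_cast h2)
    have h5 : (ringChar F).Prime := CharP.char_is_prime F _
    exact (Nat.prime_dvd_prime_iff_eq h5 Nat.prime_two).1 h4
  have h4 := FiniteField.even_card_of_char_two h3
  rw [Nat.odd_iff] at h
  omega

/-- the list -/
theorem pure_of_list {K : Type*} [Group K]
    (h : (∃ p : ℕ, p.Prime ∧ ∃ (F : Type) (_ : Field F) (_ : Fintype F), Fintype.card F = 2 ^ p ∧
      Nonempty (K ≃* Matrix.ProjectiveSpecialLinearGroup (Fin 2) F)) ∨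
    (∃ p : ℕ, p.Prime ∧ p ≠ 2 ∧ ∃ (F : Type) (_ : Field F) (_ : Fintype F), Fintype.card F = 3 ^ p ∧
      Nonempty (K ≃* Matrix.ProjectiveSpecialLinearGroup (Fin 2) F)) ∨
    (∃ p : ℕ, p.Prime ∧ (p = 5 ∨ (5 < p ∧ (p % 5 = 2 ∨ p % 5 = 3))) ∧
      ∃ (F : Type) (_ : Field F) (_ : Fintype F), Fintype.card F = p ∧
        Nonempty (K ≃* Matrix.ProjectiveSpecialLinearGroup (Fin 2) F)) ∨
    (∃ (F : Type) (_ : Field F) (_ : Fintype F), Fintype.card F = 3 ∧
      Nonempty (K ≃* Matrix.ProjectiveSpecialLinearGroup (Fin 3) F)) ∨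
    (∃ (F : Type) (_ : Field F) (_ : Fintype F) (m : ℕ), 1 ≤ m ∧ (2 * m + 1).Prime ∧
      Fintype.card F = 2 ^ (2 * m + 1) ∧ Nonempty (K ≃* Cfsg.Lie.Sz F (2 ^ (m + 1))))) : Pure K := by
  rcases h with ⟨p, hp, F, _, _, hF, ⟨e⟩⟩ | ⟨p, -, -, F, _, _, hF, ⟨e⟩⟩ | ⟨p, hp, h5, F, _, _, hF, ⟨e⟩⟩ |
    ⟨F, _, _, hF, ⟨e⟩⟩ | ⟨F, _, _, m, hm, -, hF, ⟨e⟩⟩
  · refine Pure.congr e.symm ?_
    have hc : ringChar F = 2 := by
      obtain ⟨n, hn, h1⟩ := FiniteField.card F (ringChar F)
      rw [hF] at h1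
      have h2 : 2 ∣ (ringChar F) ^ (n : ℕ) := by rw [← h1]; exact dvd_pow_self 2 hp.ne_zero
      exact ((Nat.prime_dvd_prime_iff_eq Nat.prime_two hn).1 (Nat.prime_two.dvd_of_dvd_pow h2)).symm
    refine pure_psl2_even ?_ ?_ ?_
    · have h1 := ringChar.spec F 2
      have h2 : ((2 : ℕ) : F) = 0 := h1.2 (by rw [hc])
      exact_mod_cast h2
    · intro x
      obtain ⟨y, hy⟩ := FiniteField.isSquare_of_char_two hc x
      exact ⟨y, hy.symm⟩
    · classical
      by_contra hcon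
      push Not at hcon
      have h1 : (Finset.univ : Finset F) ⊆ {0, 1} := by
        intro x _
        rw [Finset.mem_insert, Finset.mem_singleton]
        by_cases hx : x = 0
        · exact Or.inl hx
        · exact Or.inr (hcon x hx)
      have h3 := (Finset.card_le_card h1).trans Finset.card_le_two
      rw [Finset.card_univ, hF] at h3
      have h4 : 2 ^ 2 ≤ 2 ^ p := Nat.pow_le_pow_right (by norm_num) hp.two_le
      omega
  · refine Pure.congr e.symm (pure_psl2_odd (two_ne ?_) sum_sq)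
    rw [hF]
    exact Odd.pow (by decide)
  · refine Pure.congr e.symm (pure_psl2_odd (two_ne ?_) sum_sq)
    rw [hF]
    exact hp.odd_of_ne_two (by rcases h5 with h5 | h5 <;> omega)
  · refine Pure.congr e.symm (pure_psl3 (two_ne ?_))
    rw [hF]
    decide
  · exact Pure.congr e.symm (pure_sz hm hF)

end Cfsg.Agent.H285.Ccp
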